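import Mathlib
import Cfsg.Agent.Nodes.RGDTypeA

/-!
# Block embeddings `SL_κ(F) → SL_ι(F)` (helper1)

* `emb f` for an embedding `f : κ ↪ ι`; `emb_tv`, `range_emb`, `emb_injective`.
-/

set_option autoImplicit false
set_option linter.unusedSectionVars false

namespace Cfsg.Agent.H1.EmbSL

open Matrix Cfsg.Agent.Nodes.RGDTypeA Cfsg.Agent.TitsThree.KSideA Cfsg.Agent.LieClassical.SLGen

variable {ι κ F : Type*} [Field F] [DecidableEq ι] [Fintype ι] [DecidableEq κ] [Fintype κ]

/-- the decomposition of `ι` -/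
noncomputable def dec (f : κ ↪ ι) : κ ⊕ {x : ι // x ∉ Set.range f} ≃ ι :=
  ((Equiv.ofInjective f f.injective).sumCongr (Equiv.refl _)).trans (Equiv.Set.sumCompl (Set.range f))

theorem dec_inl (f : κ ↪ ι) (a : κ) : dec f (Sum.inl a) = f a := rfl

open Classical in
/-- the block embedding -/
noncomputable def emb (f : κ ↪ ι) : SpecialLinearGroup κ F →* SpecialLinearGroup ι F where
  toFun g := ⟨Matrix.reindex (dec f) (dec f) (Matrix.fromBlocks g.1 0 0 1), by
    rw [Matrix.det_reindex_self, Matrix.det_fromBlocks_zero₂₁, g.2, Matrix.det_one, one_mul]⟩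
  map_one' := by
    apply Subtype.ext
    change Matrix.reindex (dec f) (dec f) (Matrix.fromBlocks (1 : Matrix κ κ F) 0 0 1) = 1
    rw [Matrix.fromBlocks_one, Matrix.reindex_apply, Matrix.submatrix_one_equiv]
  map_mul' g k := by
    apply Subtype.ext
    change Matrix.reindex (dec f) (dec f) (Matrix.fromBlocks (g.1 * k.1) 0 0 1) =
      Matrix.reindex (dec f) (dec f) (Matrix.fromBlocks g.1 0 0 1) *
        Matrix.reindex (dec f) (dec f) (Matrix.fromBlocks k.1 0 0 1)
    rw [Matrix.reindex_apply, Matrix.reindex_apply, Matrix.reindex_apply, Matrix.submatrix_mul_equiv,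
      Matrix.fromBlocks_multiply]
    simp

theorem emb_injective (f : κ ↪ ι) : Function.Injective (emb (F := F) f) := by
  intro g k h
  have h1 : Matrix.reindex (dec f) (dec f) (Matrix.fromBlocks g.1 0 0 1) =
      Matrix.reindex (dec f) (dec f) (Matrix.fromBlocks k.1 0 0 1) := congrArg Subtype.val h
  have h2 := (Matrix.reindex (dec f) (dec f)).injective h1
  exact Subtype.ext (Matrix.fromBlocks_inj.1 h2).1

theorem emb_tv (f : κ ↪ ι) {a b : κ} (hab : a ≠ b) (t : F) : emb f (tv a b t) = tv (f a) (f b) t := by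
  classical
  apply Subtype.ext
  change Matrix.reindex (dec f) (dec f) (Matrix.fromBlocks (tv a b t).1 0 0 1) = _
  rw [tv_val hab, tv_val (fun h => hab (f.injective h))]
  ext i j
  obtain ⟨i, rfl⟩ := (dec f).surjective i
  obtain ⟨j, rfl⟩ := (dec f).surjective j
  rw [Matrix.reindex_apply, Matrix.submatrix_apply, Equiv.symm_apply_apply, Equiv.symm_apply_apply,
    Matrix.add_apply]
  have h1 : (1 : Matrix ι ι F) (dec f i) (dec f j) = (1 : Matrix (κ ⊕ {x : ι // x ∉ Set.range f}) _ F) i j := by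
    rw [Matrix.one_apply, Matrix.one_apply]
    simp only [(dec f).injective.eq_iff]
  have h2 : Matrix.single (f a) (f b) t (dec f i) (dec f j) = Matrix.single (Sum.inl a) (Sum.inl b) t i j := by
    rw [Matrix.single_apply, Matrix.single_apply, ← dec_inl, ← dec_inl]
    simp only [(dec f).injective.eq_iff]
  rw [h1, h2, ← Matrix.fromBlocks_one]
  rcases i with i | i <;> rcases j with j | j
  · simp [Matrix.single_apply]
  · simp
  · simp
  · simp

theorem range_emb [Nontrivial κ] (f : κ ↪ ι) :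
    (emb (F := F) f).range = ⨆ p : {p : κ × κ // p.1 ≠ p.2}, XX F (f p.1.1) (f p.1.2) := by
  rw [MonoidHom.range_eq_map, ← closure_transvections (ι := κ) (F := F), MonoidHom.map_closure]
  apply le_antisymm
  · rw [Subgroup.closure_le]
    rintro _ ⟨_, ⟨a, b, hab, t, rfl⟩, rfl⟩
    rw [← tv_of_ne hab, emb_tv f hab]
    exact Subgroup.mem_iSup_of_mem (S := fun p : {p : κ × κ // p.1 ≠ p.2} => XX F (f p.1.1) (f p.1.2))
      ⟨(a, b), hab⟩ (tv_mem_XX _ _ _)
  · refine iSup_le ?_
    rintro ⟨⟨a, b⟩, hab⟩ _ ⟨t, rfl⟩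
    refine Subgroup.subset_closure ⟨tv a b t, ⟨a, b, hab, t, tv_of_ne hab t⟩, emb_tv f hab t⟩

end Cfsg.Agent.H1.EmbSL
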