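import Cfsg.Agent.H1.Asm
import Cfsg.Agent.H4.Hyp
import Cfsg.Agent.H6.He.Row
import Cfsg.Agent.H7.J4Row

/-!
# S1826 and S1828 (helper1)
-/

set_option autoImplicit false

namespace Cfsg.Agent.H1.End

open Subgroup Cfsg Cfsg.Agent.H4.LfTrans Cfsg.Agent.H5.Resid Cfsg.Agent.H1.Asm

universe u

variable {G : Type u} [Group G] [Finite G]

theorem he_psl (h : Spor.IsoHe G) (T : Sylow 2 G) (L : Subgroup G) (hL : L ∈ calLf (T : Subgroup G))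
    (F : Type) [Field F] [Fintype F] [CharP F 2] :
    IsEmpty (↥L ⧸ Cfsg.pCore 2 ↥L ≃* Matrix.ProjectiveSpecialLinearGroup (Fin 2) F) := by
  refine ⟨fun e => ?_⟩
  obtain ⟨-, h1 | h1⟩ := H6.HeRow.he_mem h T hL.1
  · exact false_l3 h1 e
  · obtain ⟨-, h2, ⟨e'⟩⟩ := h1
    refine card_ne (F := F) (Or.inr (Or.inr (Or.inl rfl))) ?_
    rw [← Nat.card_congr e.toEquiv, Subgroup.card_eq_card_quotient_mul_card_subgroup (center (↥L ⧸ pCore 2 ↥L)),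
      h2, Nat.card_congr e'.toEquiv, H5.ResidEnd.card_alt_six]

theorem hyp [IsSimpleGroup G] (hG : ¬ IsMulCommutative G) (hQ : IsQTKE G) (hFT0 : H5.Top.FT.{0}) : Asm.Hyp G where
  resid := H4.HypAll.hyp hFT0 hQ.2.2
  he h T _ hL _ := (H6.HeRow.he_mem h T hL.1.1).1
  he_psl h T L hL F _ _ _ := he_psl h T L hL F
  j4 h T _ hL _ := H7.J4Row.norm hG hQ h T hL.1.1
  j4_psl h T _ hL F _ _ hF h4 := ⟨fun e => H7.J4Row.no_lie hG hQ h T hL ⟨F, _, _, hF, h4.le, Or.inl ⟨e⟩⟩⟩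

/-- **S1826** -/
theorem s1826 [IsSimpleGroup G] (hG : ¬ IsMulCommutative G) (hQ : IsQTKE G) (hFT : H5.Top.FT.{u}) (hFT0 : H5.Top.FT.{0})
    (hl : IsOnQTKEList G) (T : Sylow 2 G) (L : Subgroup G)
    (hL : L ∈ Cfsg.calLfMax (T : Subgroup G)) (hq : Cfsg.IsQuasisimple (↥L ⧸ Cfsg.pCore 2 ↥L)) :
    (T : Subgroup G) ≤ Subgroup.normalizer (L : Set G) :=
  norm_main hFT hFT0 hQ.2.2 hl (hyp hG hQ hFT0) T L hL hq

/-- **S1828** -/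
theorem s1828 [IsSimpleGroup G] (hG : ¬ IsMulCommutative G) (hQ : IsQTKE G) (hFT : H5.Top.FT.{u}) (hFT0 : H5.Top.FT.{0})
    (hl : IsOnQTKEList G) (T : Sylow 2 G) (L : Subgroup G)
    (hL : L ∈ Cfsg.calLfMax (T : Subgroup G))
    (hL2 : ∃ (F : Type) (_ : Field F) (_ : Fintype F), CharP F 2 ∧
      Nonempty (↥L ⧸ Cfsg.pCore 2 ↥L ≃* Matrix.ProjectiveSpecialLinearGroup (Fin 2) F)) :
    Nonempty (↥L ⧸ Cfsg.pCore 2 ↥L ≃* ↥(alternatingGroup (Fin 5))) ∨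
      Cfsg.IsLieRankTwoCharTwo G ∨ Cfsg.Spor.IsoM22 G ∨ Cfsg.Spor.IsoM23 G := by
  obtain ⟨F, _, _, hF, ⟨e⟩⟩ := hL2
  exact psl_main hFT hQ.2.2 hl (hyp hG hQ hFT0) hL e

end Cfsg.Agent.H1.End
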