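import Mathlib
import Cfsg.Agent.H1.RowExc
import Cfsg.Agent.GenExc.LeviQs

/-!
# Nodes with a quasisimple `⟨X_i, X_{-i}⟩` (helper1)

* `nodeD_qs` : if the root groups lie in the commutator group of `N = ⟨X_i, X_{-i}⟩`, then `N` is quasisimple, `O₂(N) = 1`;
* `RowT` : every member of `ℒ(G, T)` contains `T`; `rowT_of_rgd`.
-/

set_option autoImplicit false
set_option linter.unusedSectionVars false

namespace Cfsg.Agent.H1.QsNode

open CoxeterSystem Cfsg.Agent.ChevalleyStructure.CoxeterGeom Cfsg.Agent.Tits.Roots Cfsg.Agent.Tits.Core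
  Cfsg.Agent.Tits.RootComb Cfsg.Agent.Tits.Exchange Cfsg.Agent.Nodes.Reps Cfsg.Agent.Nodes.BNOf
  Cfsg.Agent.Nodes.StabComb Cfsg.Agent.Nodes.Bruhat Cfsg.Agent.Nodes.OppDec Cfsg.Agent.Nodes.LeviDec
  Cfsg.Agent.KFacts.RgdBorelTits Cfsg.Agent.KFacts.RgdFilt Cfsg.Agent.H1.Over Cfsg.Agent.H1.RgdRow
  Cfsg.Agent.H1.RankTwo Cfsg.Agent.H1.RowExc Cfsg.Agent.GenExc Cfsg.Agent.Nodes.Sub
open scoped commutatorElement

universe u v w

variable {I W Y : Type*} [Fintype I] [DecidableEq I] [Group W] [Group Y] {M : CoxeterMatrix I}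
  {cs : CoxeterSystem M W} {A : I → I → ℤ} {h : IsCartan M A} {T : Subgroup Y} {n : I → Y}
  {X : (I → ℤ) → Subgroup Y}

/-- the inclusion of one node -/
def one (i : I) : Unit ↪ I := ⟨fun _ => i, fun _ _ _ => rfl⟩

theorem HL_one (i : I) : HL cs h X (one i) = X (sr i) ⊔ X (-sr i) := by
  rw [← Sup_single (cs := cs) (h := h)]
  unfold HL
  congr 1
  ext x
  constructor
  · rintro ⟨h1, h2⟩
    exact ⟨h1, fun k hk => h2 k fun _ he => hk he.symm⟩
  · rintro ⟨h1, h2⟩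
    exact ⟨h1, fun k hk => h2 k fun he => hk () he.symm⟩

/-- **the node `i` is quasisimple** -/
theorem isQuasisimple_node [Finite W] [Finite Y] (R : RGD cs h 2 T n X) (hT : Group.IsSolvable T) (i : I)
    (hn : n i ∈ X (sr i) ⊔ X (-sr i))
    (h1 : X (sr i) ≤ ⁅X (sr i) ⊔ X (-sr i), X (sr i) ⊔ X (-sr i)⁆)
    (h2 : X (-sr i) ≤ ⁅X (sr i) ⊔ X (-sr i), X (sr i) ⊔ X (-sr i)⁆) :
    Cfsg.IsQuasisimple ↥(X (sr i) ⊔ X (-sr i)) ∧ pCore 2 ↥(X (sr i) ⊔ X (-sr i)) = ⊥ := by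
  have h2p : Fact (Nat.Prime 2) := ⟨Nat.prime_two⟩
  have hfin : Finite (leviMatrix (one i) M).Group := finite_WL (cs := cs) (h := h) (one i)
  have hn' : ∀ j, n ((one i) j) ∈ HL cs h X (one i) := fun _ => by rw [HL_one]; exact hn
  have hperf : commutator ↥(HL cs h X (one i)) = ⊤ := by
    refine perfect_HL (one i) fun x hx => ?_
    rw [HL_one]
    have hx' : x ∈ RootsJ cs h {i} := ⟨hx.1, fun k hk => hx.2 k fun _ he => hk he.symm⟩
    rcases rootsJ_single i hx' with rfl | rfl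
    · exact h1
    · exact h2
  have hconn : ∀ J : Set Unit, J.Nonempty → J ≠ Set.univ → ∃ a ∈ J, ∃ b, b ∉ J ∧ (leviMatrix (one i) M) a b ≠ 2 := by
    rintro J ⟨x, hx⟩ hJ
    exact (hJ (Set.eq_univ_iff_forall.2 fun y => hx)).elim
  have hTs : Group.IsSolvable ↥(T.subgroupOf (HL cs h X (one i))) := by
    let g : ↥(T.subgroupOf (HL cs h X (one i))) →* T :=
      { toFun := fun x => ⟨x.1.1, Subgroup.mem_subgroupOf.1 x.2⟩
        map_one' := rfl
        map_mul' := fun _ _ => rfl }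
    have hinj : Function.Injective g := by
      intro a b hab
      have h3 : (g a : Y) = (g b : Y) := congrArg (fun z : T => (z : Y)) hab
      exact Subtype.ext (Subtype.ext h3)
    exact Group.isSolvable_of_isSolvable_injective hinj
  have hR := rgd_HL (one i) R hn'
  have hqs : Cfsg.IsQuasisimple ↥(HL cs h X (one i)) :=
    Cfsg.Agent.UGT.U2.FOne.QsRGD.isQuasisimple_of_rgd hR (G1_HL_top (one i)) hconn hTs hperf
  have hcen := center_le_T hR (G1_HL_top (one i)) hconn hTs hperf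
  have hcore : pCore 2 ↥(HL cs h X (one i)) = ⊥ := by
    have hp := Lib.Cores.pCore_isPGroup (G := ↥(HL cs h X (one i))) 2
    rcases Lib.ComponentSolvable.quasisimple_normal_cases hqs (Lib.Cores.pCore_normal (G := ↥(HL cs h X (one i))) 2) with h3 | h3
    · exfalso
      rw [h3] at hp
      have h4 : Group.IsSolvable (⊤ : Subgroup ↥(HL cs h X (one i))) := by
        have := hp.isNilpotent
        infer_instance
      have h5 : Group.IsSolvable ↥(HL cs h X (one i)) :=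
        Group.isSolvable_of_surjective (f := (Subgroup.topEquiv (G := ↥(HL cs h X (one i)))).toMonoidHom)
          Subgroup.topEquiv.surjective
      have hne : Nontrivial ↥(HL cs h X (one i)) := by
        have := hqs.2.toNontrivial
        exact (QuotientGroup.mk'_surjective (Subgroup.center ↥(HL cs h X (one i)))).nontrivial
      have h6 := Group.IsSolvable.commutator_lt_top_of_nontrivial ↥(HL cs h X (one i))
      rw [hperf] at h6
      exact lt_irrefl _ h6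
    · -- central 2-subgroup inside a group of odd order
      have h4 : pCore 2 ↥(HL cs h X (one i)) ≤ T.subgroupOf (HL cs h X (one i)) := h3.trans hcen
      have h5 : (Nat.card ↥(T.subgroupOf (HL cs h X (one i)))).Coprime 2 := hR.tcop
      obtain ⟨k, hk⟩ := (IsPGroup.iff_card.1 hp)
      have h6 := Subgroup.card_dvd_of_le h4
      rw [hk] at h6
      have h7 : (2 ^ k).Coprime 2 := Nat.Coprime.coprime_dvd_left h6 h5
      have h8 : k = 0 := by
        by_contra h9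
        obtain ⟨m, rfl⟩ := Nat.exists_eq_succ_of_ne_zero h9
        rw [Nat.succ_eq_add_one, pow_succ] at h7
        exact absurd (Nat.Coprime.coprime_mul_left h7) (by decide)
      rw [h8, pow_zero] at hk
      exact Subgroup.card_eq_one.1 hk
  rw [HL_one] at hqs hcore
  exact ⟨hqs, hcore⟩

/-- **the data of the node `i`** -/
theorem nodeD_qs [Finite W] [Finite Y] (R : RGD cs h 2 T n X) (hT : Group.IsSolvable T) (i : I)
    (hn : n i ∈ X (sr i) ⊔ X (-sr i))
    (h1 : X (sr i) ≤ ⁅X (sr i) ⊔ X (-sr i), X (sr i) ⊔ X (-sr i)⁆)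
    (h2 : X (-sr i) ≤ ⁅X (sr i) ⊔ X (-sr i), X (sr i) ⊔ X (-sr i)⁆) :
    NodeD cs h T X {i} (X (sr i) ⊔ X (-sr i)) := by
  obtain ⟨hqs, hcore⟩ := isQuasisimple_node R hT i hn h1 h2
  refine ⟨?_, hqs, hcore, T, hT, T_le_LJ, ?_, ?_⟩
  · rw [Sup_single]
  · intro t ht
    rw [mem_normalizer_iff_cj, cj_sup, R.tor _ (isRoot_sr cs h i) t ht, R.tor _ (isRoot_sr cs h i).neg t ht]
  · rw [← Sup_single (cs := cs) (h := h)]
    exact le_rfl

section tight

/-- every member of `ℒ(G, T)` contains `T` -/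
def RowT (G : Type u) [Group G] : Prop := ∀ (S : Sylow 2 G), ∀ L ∈ calL (S : Subgroup G), (S : Subgroup G) ≤ L

/-- transport along an isomorphism -/
theorem RowT.congr {G : Type u} {K : Type v} [Group G] [Group K] [Finite G] (e : G ≃* K) (hK : RowT K) :
    RowT G := by
  intro S L hL x hx
  have h1 : L.map e.toMonoidHom ∈ calL ((H4.LfTrans.mapSylow e S : Subgroup K)) := by
    rw [H4.LfTrans.coe_mapSylow]
    exact H4.LfTrans.map_mem_calL e hL
  have h2 : e x ∈ L.map e.toMonoidHom := hK _ _ h1 (by rw [H4.LfTrans.coe_mapSylow]; exact ⟨x, hx, rfl⟩)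
  obtain ⟨y, hy, he⟩ := h2
  exact e.injective he ▸ hy

/-- one Sylow subgroup suffices -/
theorem RowT.of_one {G : Type u} [Group G] [Finite G] (S₀ : Sylow 2 G)
    (h : ∀ L ∈ calL (S₀ : Subgroup G), (S₀ : Subgroup G) ≤ L) : RowT G := by
  intro S L hL x hx
  obtain ⟨g, hg⟩ := H4.LfTrans.exists_conj S S₀
  have h1 : L.map (MulAut.conj g).toMonoidHom ∈ calL (S₀ : Subgroup G) := by
    rw [hg]
    exact H4.LfTrans.map_mem_calL (MulAut.conj g) hL
  have h2 : MulAut.conj g x ∈ L.map (MulAut.conj g).toMonoidHom := h _ h1 (by rw [hg]; exact ⟨x, hx, rfl⟩)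
  obtain ⟨y, hy, he⟩ := h2
  exact (MulAut.conj g).injective he ▸ hy

variable {F : (I → ℤ) → ℝ → Subgroup Y} {R : RGD cs h 2 T n X}

/-- a perfect overgroup of `U` in every nonsolvable `⟨U, L_J⟩` -/
def PerfJ (cs : CoxeterSystem M W) (h : IsCartan M A) (T : Subgroup Y) (X : (I → ℤ) → Subgroup Y) (J : Set I) : Prop :=
  Group.IsSolvable ↥(LJ cs h T X J) ∨ ∃ D : Subgroup Y, RGD.Sup X (RGD.Pos cs h) ≤ D ∧
    D ≤ RGD.Sup X (RGD.Pos cs h) ⊔ RGD.Sup X (RootsJ cs h J) ∧ ⁅D, D⁆ = D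

theorem le_of_calL [Finite W] [Finite Y] (hF : Filt R F) (hG : Nodes.RGDLib.G1 cs h X = ⊤)
    (hP : ∀ J : Set I, J ≠ Set.univ → PerfJ cs h T X J) {L : Subgroup Y}
    (hL : L ∈ calL (RGD.Sup X (RGD.Pos cs h)))
    (hLn : L ⊔ RGD.Sup X (RGD.Pos cs h) ≤ Subgroup.normalizer (L : Set Y)) :
    RGD.Sup X (RGD.Pos cs h) ≤ L := by
  have h2p : Fact (Nat.Prime 2) := ⟨Nat.prime_two⟩
  set U := RGD.Sup X (RGD.Pos cs h) with hU
  obtain ⟨hJ, hHP⟩ := le_PJ_of_core hF hG (H := L ⊔ U) le_sup_right hL.2.2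
  set J := JH X (L ⊔ U) with hJdef
  have hVs : Group.IsSolvable (VJ cs h X J) := by
    have := (VJ_isPGroup R J).isNilpotent
    infer_instance
  rcases hP J hJ with hs | ⟨D, hUD, hDJ, hD⟩
  · exfalso
    have h1 : Group.IsSolvable ↥(PJ cs h T X J) := isSolvable_sup hs hVs (LJ_le_normalizer_VJ R J)
    refine Tight.not_solvable_of_calL hL ?_
    exact Group.isSolvable_of_isSolvable_injective (f := Subgroup.inclusion hHP) (Subgroup.inclusion_injective hHP)
  · have hDH : D ≤ L ⊔ U := hDJ.trans (sup_le le_sup_right (rootsJ_le R le_sup_right))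
    have hn : (L.subgroupOf (L ⊔ U)).Normal := Subgroup.normal_subgroupOf_iff_le_normalizer le_sup_left |>.2 hLn
    have hq : Group.IsSolvable (↥(L ⊔ U) ⧸ L.subgroupOf (L ⊔ U)) := by
      have hUs : Group.IsSolvable U := by
        have := (R.isPGroup_Upos).isNilpotent
        infer_instance
      let g : ↥U →* ↥(L ⊔ U) ⧸ L.subgroupOf (L ⊔ U) :=
        (QuotientGroup.mk' _).comp (Subgroup.inclusion le_sup_right)
      refine Group.isSolvable_of_surjective (f := g) ?_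
      intro y
      obtain ⟨⟨x, hx⟩, rfl⟩ := QuotientGroup.mk'_surjective _ y
      have h1 : x ∈ ((U ⊔ L : Subgroup Y) : Set Y) := by rw [sup_comm]; exact hx
      rw [Subgroup.coe_mul_of_left_le_normalizer_right _ _ (le_sup_right.trans hLn), Set.mem_mul] at h1
      obtain ⟨u, hu, l, hl, rfl⟩ := h1
      refine ⟨⟨u, hu⟩, ?_⟩
      change QuotientGroup.mk' _ (⟨u, _⟩ : ↥(L ⊔ U)) = QuotientGroup.mk' _ (⟨u * l, hx⟩ : ↥(L ⊔ U))
      rw [QuotientGroup.mk'_eq_mk']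
      exact ⟨⟨l, Subgroup.mem_sup_left hl⟩, Subgroup.mem_subgroupOf.2 hl, rfl⟩
    have hDp : ⁅D.subgroupOf (L ⊔ U), D.subgroupOf (L ⊔ U)⁆ = D.subgroupOf (L ⊔ U) := by
      apply Subgroup.map_injective (L ⊔ U).subtype_injective
      rw [Subgroup.map_commutator, Subgroup.subgroupOf_map_subtype, inf_eq_left.2 hDH, hD]
    have h1 := Tight.le_of_perfect_of_quot (L.subgroupOf (L ⊔ U)) hDp
    intro x hx
    exact Subgroup.mem_subgroupOf.1 (h1 (show (⟨x, hDH (hUD hx)⟩ : ↥(L ⊔ U)) ∈ D.subgroupOf (L ⊔ U) from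
      Subgroup.mem_subgroupOf.2 (hUD hx)))

/-- `D i = ⟨U, X_{-i}⟩` is perfect -/
def PerfNode (cs : CoxeterSystem M W) (h : IsCartan M A) (X : (I → ℤ) → Subgroup Y) (i : I) : Prop :=
  RGD.Sup X (RGD.Pos cs h) ≤ ⁅RGD.Sup X (RGD.Pos cs h) ⊔ X (-sr i), RGD.Sup X (RGD.Pos cs h) ⊔ X (-sr i)⁆ ∧
    X (-sr i) ≤ ⁅RGD.Sup X (RGD.Pos cs h) ⊔ X (-sr i), RGD.Sup X (RGD.Pos cs h) ⊔ X (-sr i)⁆

theorem perfJ_of_mem {J : Set I} {i : I} (hi : i ∈ J) (h1 : PerfNode cs h X i) : PerfJ cs h T X J := by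
  refine Or.inr ⟨RGD.Sup X (RGD.Pos cs h) ⊔ X (-sr i), le_sup_left, sup_le_sup_left ?_ _, ?_⟩
  · exact RGD.le_Sup (RootsJ.neg (PosJ_subset _ (sr_mem_PosJ hi)))
  · exact le_antisymm (Subgroup.commutator_le_self _) (sup_le h1.1 h1.2)

theorem perfJ_of_nodes (hT : Group.IsSolvable T) (h1 : ∀ i, PerfNode cs h X i) (J : Set I) : PerfJ cs h T X J := by
  rcases Set.eq_empty_or_nonempty J with rfl | ⟨i, hi⟩
  · left
    rw [LJ_empty]
    exact hT
  · exact perfJ_of_mem hi (h1 i)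

/-- **The tight row.** -/
theorem rowT_of_rgd {Y : Type v} [Group Y] {T : Subgroup Y} {n : I → Y} {X : (I → ℤ) → Subgroup Y}
    {R : RGD cs h 2 T n X} {F : (I → ℤ) → ℝ → Subgroup Y} [Finite W] [Finite Y] (hF : Filt R F)
    (hG : Nodes.RGDLib.G1 cs h X = ⊤) {ι : Type*} {Q : ι → Type w} [∀ i, Group (Q i)] (hL : RowL Q Y)
    (hP : ∀ J : Set I, J ≠ Set.univ → PerfJ cs h T X J) : RowT Y := by
  have h2p : Fact (Nat.Prime 2) := ⟨Nat.prime_two⟩
  obtain ⟨S, hS⟩ := exists_sylow R (GG_eq_top hG)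
  refine RowT.of_one S fun L h1 => ?_
  have h2 := (hL S L h1).1
  rw [hS] at h1 h2 ⊢
  exact le_of_calL hF hG hP h1 (sup_le Subgroup.le_normalizer h2)

end tight

end Cfsg.Agent.H1.QsNode
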