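import Mathlib
import Cfsg.Agent.H1.RowExc
import Cfsg.Agent.H1.EmbSL
import Cfsg.Agent.KFacts.RgdFiltClass

/-!
# `L₃(q)`, `q` even, and `L₅(2)`: `ℒ(G, T)` (helper1)
-/

set_option autoImplicit false
set_option linter.unusedSectionVars false

namespace Cfsg.Agent.H1.RowPSL

open Cfsg Matrix
open CoxeterSystem Cfsg.Agent.ChevalleyStructure.CoxeterGeom Cfsg.Agent.Tits.Roots Cfsg.Agent.Tits.Core
  Cfsg.Agent.Tits.RootComb Cfsg.Agent.Tits.Exchange Cfsg.Agent.Nodes.Reps Cfsg.Agent.Nodes.BNOf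
  Cfsg.Agent.Nodes.StabComb Cfsg.Agent.Nodes.Bruhat Cfsg.Agent.Nodes.OppDec Cfsg.Agent.Nodes.LeviDec
  Cfsg.Agent.KFacts.RgdBorelTits Cfsg.Agent.KFacts.RgdFilt Cfsg.Agent.KFacts.RgdFiltWitt Cfsg.Agent.H1.Over Cfsg.Agent.H1.RgdRow
  Cfsg.Agent.H1.RankTwo Cfsg.Agent.H1.RowExc Cfsg.Agent.H1.EmbSL
open Cfsg.Agent.Nodes.RGDTypeA Cfsg.Agent.TitsThree.KSideA Cfsg.Agent.LieClassical.SLGen
open Cfsg.Agent.LieRecognition.BNCox (cA)

universe u v w

variable {F : Type w} [Field F] [Fintype F] [CharP F 2]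

theorem mul_comm_T {n : ℕ} {g k : SpecialLinearGroup (Fin (n + 1)) F} (hg : g ∈ T (Fin (n + 1)) F)
    (hk : k ∈ T (Fin (n + 1)) F) : g * k = k * g := by
  have h1 : ∀ {g : SpecialLinearGroup (Fin (n + 1)) F}, g ∈ T (Fin (n + 1)) F → g.1 = Matrix.diagonal fun i => g.1 i i := by
    intro g hg
    ext a b
    rw [Matrix.diagonal_apply]
    split_ifs with h
    · rw [h]
    · by_contra h2
      exact h (mem_T.1 hg a b h2)
  apply Subtype.ext
  change g.1 * k.1 = k.1 * g.1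
  rw [h1 hg, h1 hk, Matrix.diagonal_mul_diagonal, Matrix.diagonal_mul_diagonal]
  congr 1
  funext i
  exact mul_comm _ _

theorem solvable_T (n : ℕ) : Group.IsSolvable ↥((T (Fin (n + 1)) F).map (pr n F)) := by
  have h1 : Group.IsSolvable ↥(T (Fin (n + 1)) F) :=
    Group.isSolvable_of_comm fun a b => Subtype.ext (mul_comm_T a.2 b.2)
  exact Group.isSolvable_of_surjective (f := (pr n F).subgroupMap (T (Fin (n + 1)) F))
    ((pr n F).subgroupMap_surjective _)

/-- the block of the indices `i, i + 1` -/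
def pairEmb {n : ℕ} (i : Fin n) : Fin 2 ↪ Fin (n + 1) where
  toFun := ![i.castSucc, i.succ]
  inj' := by
    intro a b h
    fin_cases a <;> fin_cases b
    · rfl
    · exact absurd h (Fin.castSucc_lt_succ).ne
    · exact absurd h (Fin.castSucc_lt_succ).ne'
    · rfl

theorem range_pair {n : ℕ} (i : Fin n) :
    ((pr n F).comp (emb (pairEmb i))).range = (X F (sr i)).map (pr n F) ⊔ (X F (-sr i)).map (pr n F) := by
  rw [MonoidHom.range_comp, range_emb, ← Subgroup.map_sup, X_sr, X_neg_sr]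
  congr 1
  apply le_antisymm
  · refine iSup_le ?_
    rintro ⟨⟨a, b⟩, hab⟩
    fin_cases a <;> fin_cases b
    · exact absurd rfl hab
    · exact le_sup_left
    · exact le_sup_right
    · exact absurd rfl hab
  · refine sup_le ?_ ?_
    · exact le_iSup (fun p : {p : Fin 2 × Fin 2 // p.1 ≠ p.2} => XX F (pairEmb i p.1.1) (pairEmb i p.1.2))
        ⟨(0, 1), by decide⟩
    · exact le_iSup (fun p : {p : Fin 2 × Fin 2 // p.1 ≠ p.2} => XX F (pairEmb i p.1.1) (pairEmb i p.1.2))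
        ⟨(1, 0), by decide⟩

theorem exists_filt (n : ℕ) : ∃ Φ : (Fin n → ℤ) → ℝ → Subgroup (ProjectiveSpecialLinearGroup (Fin (n + 1)) F),
    Finite (cA n).Group ∧
    ∃ R : RGD (cA n).toCoxeterSystem (Nodes.RootsA.isCartan n) 2 ((T (Fin (n + 1)) F).map (pr n F))
      (fun i => pr n F (ns n F i)) (fun x => (X F x).map (pr n F)), Filt R Φ := by
  have h2 : Fact (Nat.Prime 2) := ⟨Nat.prime_two⟩
  have hc : ∀ i j : Fin n, cA n i j ≤ 3 := by
    intro i j
    rw [Cfsg.Agent.LieRecognition.BNCox.cA_apply]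
    show (if (i : ℕ) = j then 1 else if (i : ℕ) + 1 = j ∨ (j : ℕ) + 1 = i then 3 else 2) ≤ 3
    split_ifs <;> norm_num
  have hW : Finite (cA n).Group :=
    Nodes.RootsA.finite_W (cA n).toCoxeterSystem (Nodes.RootsA.isCartan n)
  exact ⟨_, hW, Nodes.RGDTypeA.rgd_psl _ _,
    (intComm_of_sl (Nodes.RGDTypeA.rgd_psl (cA n).toCoxeterSystem (Nodes.RootsA.isCartan n))
      (sl_of_ne (fun i j h => by have := hc i j; omega) (fun i j h => by have := hc i j; omega))).filt⟩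

theorem rowL_psl_three : RowL (fun _ : Fin 2 => SpecialLinearGroup (Fin 2) F) (ProjectiveSpecialLinearGroup (Fin 3) F) := by
  obtain ⟨Φ, _, R, hF⟩ := exists_filt (F := F) 2
  have : Finite (ProjectiveSpecialLinearGroup (Fin (2 + 1)) F) := Quotient.finite _
  exact rowL_sl (F := fun _ => F) hF (Nodes.RGDTypeA.G1_psl_eq_top _ _) (solvable_T 2)
    (fun i => (pr 2 F).comp (emb (pairEmb i))) (fun i => range_pair i)

/-- **row `L₃(q)`, `q` even** -/
theorem row_psl_three {G : Type v} [Group G] [Finite G] (e : G ≃* ProjectiveSpecialLinearGroup (Fin 3) F) :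
    RowL (fun _ : Fin 2 => SpecialLinearGroup (Fin 2) F) G :=
  RowL.congr e rowL_psl_three

end Cfsg.Agent.H1.RowPSL
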