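import Mathlib
import Cfsg.Agent.KFacts.Mult.WittZ
import Cfsg.Agent.KFacts.Mult.WittA

/-!
# Witt frames of index 2, characteristic 2, at least 4 fixed scalars: perfectness (helper1)

`N i = ⟨rg (sr i), rg (-sr i)⟩` and `D i = ⟨U, rg (-sr i)⟩` are perfect.
-/

set_option autoImplicit false
set_option linter.unusedSectionVars false

namespace Cfsg.Agent.H1.WittPerf

open Cfsg.Agent.ChevalleyStructure.CoxeterGeom Cfsg.Agent.Tits.Roots Cfsg.Agent.Nodes.TypeC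
open Cfsg.Agent.Nodes.Comb Cfsg.Agent.Nodes.Reps Cfsg.Agent.Nodes.WittRoot Cfsg.Agent.Nodes.BNOf
open Cfsg.Agent.TitsThree Cfsg.Agent.TitsThree.Siegel Cfsg.Agent.TitsThree.WittFrame Cfsg.Agent.TitsThree.WittWeyl
open Cfsg.Agent.Nodes.WittRGD (Tor nn)
open Cfsg.Agent.Nodes.WittAll (AmbT)
open Cfsg.Agent.KFacts.Mult.WittW Cfsg.Agent.KFacts.Mult.WittT
open scoped commutatorElement

section free

variable {Y : Type*} [Group Y]

/-- a subgroup on which an element of `D` acts fixed point freely lies in `⁅D, D⁆` -/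
theorem le_comm_of_free {D V : Subgroup Y} [Finite V] {t : Y} (ht : t ∈ D) (hV : V ≤ D)
    (hn : ∀ v ∈ V, t * v * t⁻¹ ∈ V) (hf : ∀ v ∈ V, t * v * t⁻¹ = v → v = 1) : V ≤ ⁅D, D⁆ := by
  let f : V → V := fun v => ⟨t * v.1 * t⁻¹ * (v.1)⁻¹, mul_mem (hn _ v.2) (inv_mem v.2)⟩
  have hinj : Function.Injective f := by
    rintro ⟨v, hv⟩ ⟨w, hw⟩ hvw
    have h1 : t * v * t⁻¹ * v⁻¹ = t * w * t⁻¹ * w⁻¹ := congrArg Subtype.val hvw
    have h2 : t * (w⁻¹ * v) * t⁻¹ = w⁻¹ * v := by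
      have e1 : t * (w⁻¹ * v) * t⁻¹ = t * w⁻¹ * t⁻¹ * (t * v * t⁻¹ * v⁻¹) * v := by group
      rw [e1, h1]; group
    have h3 := hf _ (mul_mem (inv_mem hw) hv) h2
    exact Subtype.ext (inv_mul_eq_one.1 h3).symm
  intro v hv
  obtain ⟨w, hw⟩ := Finite.surjective_of_injective hinj ⟨v, hv⟩
  have h1 : t * w.1 * t⁻¹ * (w.1)⁻¹ = v := congrArg Subtype.val hw
  rw [← h1]
  exact Subgroup.commutator_mem_commutator ht (hV w.2)

/-- `⁅D, D⁆` contains the conjugates under `D` of its subgroups -/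
theorem conj_le_comm {D V : Subgroup Y} {g : Y} (hg : g ∈ D) (hV : V ≤ ⁅D, D⁆) : cj g V ≤ ⁅D, D⁆ := by
  intro x hx
  rw [mem_cj] at hx
  have h1 := hV hx
  have h2 : g * (g⁻¹ * x * g) * g⁻¹ = x := by group
  rw [← h2]
  have h3 : D ≤ Subgroup.normalizer ((⁅D, D⁆ : Subgroup Y) : Set Y) := by
    intro d hd
    rw [mem_normalizer_iff_cj]
    unfold cj
    rw [Subgroup.map_commutator]
    have : D.map (MulAut.conj d).toMonoidHom = D := cj_eq_of_mem hd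
    rw [this]
  exact (Subgroup.mem_normalizer_iff.1 (h3 hg) _).1 h1

end free

section eig

variable {F : Type*} [Field F] {V : Type*} [AddCommGroup V] [Module F V] {H : HForm F V} {n : ℕ}
  {Fr : Frame H (Fin n)}

/-- the element of `⟨X x y, X (-y) (-x)⟩` with eigenvalue `t` on `b x`, `b y` -/
noncomputable def hX (Fr : Frame H (Fin n)) (x y : Fin n × Bool) (t : F) : V ≃ₗ[F] V :=
  nX Fr x y t * (nX Fr x y 1)⁻¹

theorem inv_apply_of {g : V ≃ₗ[F] V} {v w : V} {c : F} (hc : c ≠ 0) (h : g v = c • w) : g⁻¹ w = c⁻¹ • v := by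
  have h1 : g⁻¹ (g v) = v := by
    rw [← mul_apply', inv_mul_cancel]; rfl
  rw [h, map_smul] at h1
  rw [← h1, smul_smul, inv_mul_cancel₀ hc, one_smul]

theorem eig_hX {x y : Fin n × Bool} (hxy : x.1 ≠ y.1) {t : F} (ht : t ≠ 0) (hσ : H.σ t = t) :
    Eig Fr (hX Fr x y t) (fun z => if z = x ∨ z = y then t else if z = neg x ∨ z = neg y then t⁻¹ else 1) := by
  have hε := H.ε_ne
  have hx := Fr.η_ne x
  have hy := Fr.η_ne y
  have hc : H.ε⁻¹ * Fr.η x * Fr.η y ≠ 0 := mul_ne_zero (mul_ne_zero (inv_ne_zero hε) hx) hy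
  have key : ∀ z : Fin n × Bool, z.1 = x.1 → z = x ∨ z = neg x := by
    rintro ⟨a, s⟩ h
    obtain ⟨b, u⟩ := x
    simp only at h
    subst h
    cases s <;> cases u <;> simp [neg]
  have key' : ∀ z : Fin n × Bool, z.1 = y.1 → z = y ∨ z = neg y := by
    rintro ⟨a, s⟩ h
    obtain ⟨b, u⟩ := y
    simp only at h
    subst h
    cases s <;> cases u <;> simp [neg]
  have nn1 : ∀ z : Fin n × Bool, neg z ≠ z := fun z => (ne_neg_self z).symm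
  refine ⟨HForm.IsIso.mul H (isIso_nX Fr _ _ _) (HForm.IsIso.inv H (isIso_nX Fr _ _ _)), ?_, ?_, ?_⟩
  · intro z
    by_cases h1 : z.1 = x.1
    · rcases key z h1 with rfl | rfl
      · rw [if_pos (Or.inl rfl)]
        have e1 := nX_apply_neg Fr hxy (one_ne_zero (α := F))
        have e2 := inv_apply_of (one_ne_zero (α := F)) e1
        rw [hX, mul_apply', e2, map_smul, nX_apply_neg Fr hxy ht, inv_one, one_smul]
      · have h2 : ¬ (neg x = x ∨ neg x = y) := by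
          rintro (h | h)
          · exact nn1 x h
          · exact hxy (by rw [← h]; rfl)
        rw [if_neg h2, if_pos (Or.inl rfl)]
        have e1 := nX_apply_self' Fr hxy (one_ne_zero (α := F))
        have hc1 : H.ε⁻¹ * Fr.η x * Fr.η y * H.σ 1 ≠ 0 := by rw [map_one, mul_one]; exact hc
        have e2 := inv_apply_of (inv_ne_zero hc1) e1
        rw [hX, mul_apply', e2, map_smul, nX_apply_self' Fr hxy ht, smul_smul, hσ, map_one]
        congr 1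
        field_simp
    · by_cases h2 : z.1 = y.1
      · rcases key' z h2 with rfl | rfl
        · rw [if_pos (Or.inr rfl)]
          have e1 : nX Fr x z 1 (Fr.b (neg x)) = (-(H.ε⁻¹ * Fr.η x * Fr.η z * H.σ 1)) • Fr.b z := by
            rw [nX_apply_neg' Fr hxy one_ne_zero, neg_smul]
          have hc1 : -(H.ε⁻¹ * Fr.η x * Fr.η z * H.σ 1) ≠ 0 := by
            rw [map_one, mul_one]; exact neg_ne_zero.2 hc
          have e2 := inv_apply_of hc1 e1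
          rw [hX, mul_apply', e2, map_smul, nX_apply_neg' Fr hxy ht, ← neg_smul, smul_smul, hσ, map_one]
          congr 1
          field_simp
        · have h3 : ¬ (neg y = x ∨ neg y = y) := by
            rintro (h | h)
            · exact hxy (by rw [← h]; rfl)
            · exact nn1 y h
          rw [if_neg h3, if_pos (Or.inr rfl)]
          have e1 : nX Fr x y 1 (Fr.b x) = (-(1 : F)⁻¹) • Fr.b (neg y) := by
            rw [nX_apply_self Fr hxy one_ne_zero, neg_smul]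
          have e2 := inv_apply_of (by simp) e1
          rw [hX, mul_apply', e2, map_smul, nX_apply_self Fr hxy ht, ← neg_smul, smul_smul]
          congr 1
          simp
      · have h3 : ¬ (z = x ∨ z = y) := by
          rintro (h | h)
          · exact h1 (by rw [h])
          · exact h2 (by rw [h])
        have h4 : ¬ (z = neg x ∨ z = neg y) := by
          rintro (h | h)
          · exact h1 (by rw [h]; rfl)
          · exact h2 (by rw [h]; rfl)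
        rw [if_neg h3, if_neg h4]
        have e1 : nX Fr x y 1 (Fr.b z) = (1 : F) • Fr.b z := by rw [nX_apply_of_ne Fr hxy h1 h2, one_smul]
        have e2 := inv_apply_of (one_ne_zero (α := F)) e1
        rw [hX, mul_apply', e2, map_smul, nX_apply_of_ne Fr hxy h1 h2, inv_one]
  · intro z
    split_ifs
    · exact hσ
    · rw [map_inv₀, hσ]
    · exact map_one _
  · intro w hw
    have e1 : nX Fr x y 1 w = (1 : F) • w := by rw [nX_apply_V0 Fr hxy hw, one_smul]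
    have e2 := inv_apply_of (one_ne_zero (α := F)) e1
    rw [hX, mul_apply', e2, map_smul, nX_apply_V0 Fr hxy hw, inv_one, one_smul]

/-- in characteristic 2 the square of a scalar `≠ 1` is `≠ 1` -/
theorem sq_ne [CharP F 2] {t : F} (h1 : t ≠ 1) : t * t ≠ 1 := by
  intro h
  apply h1
  have h2 : (t - 1) * (t - 1) = 0 := by
    have h3 : (2 : F) = 0 := CharTwo.two_eq_zero
    linear_combination h - (t - 1) * h3
  exact sub_eq_zero.1 (mul_self_eq_zero.1 h2)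

theorem smul_eq_self [CharP F 2] {l : F} (h0 : H.σ l = l) (h1 : l ≠ 1) {p : Fr.Adm} (h : Frame.Adm.smul l p = p) :
    p = 1 := by
  have hw : l • p.w = p.w := by rw [← Frame.Adm.smul_w, h]
  have hc : l * H.σ l * p.c = p.c := by rw [← Frame.Adm.smul_c, h]
  have hw' : p.w = 0 := by
    have : (l - 1) • p.w = 0 := by rw [sub_smul, hw, one_smul, sub_self]
    exact (smul_eq_zero.1 this).resolve_left (sub_ne_zero.2 h1)
  have hc' : p.c = 0 := by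
    have : (l * l - 1) * p.c = 0 := by rw [h0] at hc; rw [sub_mul, hc, one_mul, sub_self]
    exact (mul_eq_zero.1 this).resolve_left (sub_ne_zero.2 (sq_ne h1))
  exact Frame.Adm.ext (by rw [hw']; rfl) (by rw [hc']; rfl)

variable [Finite V] [CharP F 2]

theorem XG_le_comm {D : Subgroup (V ≃ₗ[F] V)} {g : V ≃ₗ[F] V} {m : Fin n × Bool → F} (hE : Eig Fr g m) (hg : g ∈ D)
    {x y : Fin n × Bool} (hxy : x.1 ≠ y.1) (hV : XG Fr x y ≤ D) (h1 : m x * m y ≠ 1) : XG Fr x y ≤ ⁅D, D⁆ := by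
  have : Finite (V ≃ₗ[F] V) := Finite.of_injective (fun g : V ≃ₗ[F] V => (g : V → V)) DFunLike.coe_injective
  refine le_comm_of_free hg hV ?_ ?_
  · rintro _ ⟨t, rfl⟩
    exact ⟨_, (hE.conj_X hxy t)⟩
  · rintro _ ⟨t, rfl⟩ h
    rw [hE.conj_X hxy] at h
    have h2 := X_inj hxy h
    have h3 : t = 0 := by
      have : (m x * m y - 1) * t = 0 := by rw [sub_mul, h2, one_mul, sub_self]
      exact (mul_eq_zero.1 this).resolve_left (sub_ne_zero.2 h1)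
    rw [h3, Fr.X_zero]

theorem ZG_le_comm {D : Subgroup (V ≃ₗ[F] V)} {g : V ≃ₗ[F] V} {m : Fin n × Bool → F} (hE : Eig Fr g m) (hg : g ∈ D)
    {x : Fin n × Bool} (hV : ZG Fr x ≤ D) (h1 : m x ≠ 1) : ZG Fr x ≤ ⁅D, D⁆ := by
  have : Finite (V ≃ₗ[F] V) := Finite.of_injective (fun g : V ≃ₗ[F] V => (g : V → V)) DFunLike.coe_injective
  refine le_comm_of_free hg hV ?_ ?_
  · rintro _ ⟨t, rfl⟩
    exact ⟨_, (hE.conj_Z x t)⟩
  · rintro _ ⟨t, rfl⟩ h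
    rw [hE.conj_Z] at h
    have h2 := Z_inj h
    rw [smul_eq_self (hE.fix x) h1 h2, Fr.Z_one]

end eig

section two

variable {F : Type*} [Field F] {V : Type*} [AddCommGroup V] [Module F V] {H : HForm F V}
  {Fr : Frame H (Fin 2)}

abbrev p0 : Fin 2 × Bool := (0, true)
abbrev p1 : Fin 2 × Bool := (1, true)
abbrev n0 : Fin 2 × Bool := (0, false)
abbrev n1 : Fin 2 × Bool := (1, false)

theorem rg_sr_zero : rg Fr (sr 0) = XG Fr p0 n1 := by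
  rw [Cfsg.Agent.Nodes.WittRGD.rg_sr]
  exact PG_ne Fr (a := p0) (b := n1) (by decide)

theorem rg_sr_one : rg Fr (sr 1) = ZG Fr p1 := by
  rw [Cfsg.Agent.Nodes.WittRGD.rg_sr]
  exact PG_self Fr p1

theorem rg_neg_sr_zero : rg Fr (-sr 0) = XG Fr p1 n0 := by
  rw [Cfsg.Agent.Nodes.WittRGD.rg_neg_sr]
  change PG Fr n0 p1 = _
  rw [PG_ne Fr (a := n0) (b := p1) (by decide), XG_swap Fr (a := n0) (b := p1) (by decide)]

theorem rg_neg_sr_one : rg Fr (-sr 1) = ZG Fr n1 := by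
  rw [Cfsg.Agent.Nodes.WittRGD.rg_neg_sr]
  exact PG_self Fr n1

/-- the four positive roots -/
theorem pos_cases {W : Type*} [Group W] (cs : CoxeterSystem (CoxeterMatrix.B 2) W) {x : Fin 2 → ℤ}
    (hx : IsRoot cs (isCartan 2) x) (h0 : 0 ≤ x) :
    rg Fr x = XG Fr p0 n1 ∨ rg Fr x = ZG Fr p1 ∨ rg Fr x = XG Fr p0 p1 ∨ rg Fr x = ZG Fr p0 := by
  obtain ⟨a, b, hab, e⟩ := exists_of_isRoot cs hx
  have e0 : ee x 0 = x 0 := by
    simp [ee, Fin.sum_univ_two, bt_apply]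
  have e1 : ee x 1 = 2 * x 1 - x 0 := by
    simp [ee, Fin.sum_univ_two, bt_apply]
    ring
  have h00 : 0 ≤ x 0 := h0 0
  have h01 : 0 ≤ x 1 := h0 1
  rw [e] at e0 e1
  rw [Pi.add_apply, wt_apply, wt_apply] at e0 e1
  rw [rg_eq Fr hab e]
  obtain ⟨a, s⟩ := a
  obtain ⟨b, u⟩ := b
  fin_cases a <;> fin_cases b <;> cases s <;> cases u <;> simp at e0 e1 <;>
    first
      | (exfalso; omega)
      | (exfalso; revert hab; unfold Ok; simp; done)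
      | exact Or.inl (PG_ne Fr (a := p0) (b := n1) (by decide))
      | exact Or.inl ((PG_ne Fr (a := n1) (b := p0) (by decide)).trans (XG_swap Fr (by decide)))
      | exact Or.inr (Or.inl (PG_self Fr p1))
      | exact Or.inr (Or.inr (Or.inl (PG_ne Fr (a := p0) (b := p1) (by decide))))
      | exact Or.inr (Or.inr (Or.inl ((PG_ne Fr (a := p1) (b := p0) (by decide)).trans (XG_swap Fr (by decide)))))
      | exact Or.inr (Or.inr (Or.inr (PG_self Fr p0)))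

variable [Finite V] [CharP F 2]

theorem hX_mem {D : Subgroup (V ≃ₗ[F] V)} (h1 : XG Fr p0 n1 ≤ D) (h2 : XG Fr p1 n0 ≤ D) (t : F) :
    hX Fr p0 n1 t ∈ D := by
  have key : ∀ t, nX Fr p0 n1 t ∈ D := fun t =>
    mul_mem (mul_mem (h1 ⟨_, rfl⟩) (h2 ⟨_, rfl⟩)) (h1 ⟨_, rfl⟩)
  exact mul_mem (key t) (inv_mem (key 1))

/-- node 0: the root groups `±(e₀ - e₁)` -/
theorem zero_self {D : Subgroup (V ≃ₗ[F] V)} (h1 : XG Fr p0 n1 ≤ D) (h2 : XG Fr p1 n0 ≤ D) {t : F} (ht : t ≠ 0)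
    (ht1 : t ≠ 1) (hσ : H.σ t = t) : XG Fr p0 n1 ≤ ⁅D, D⁆ ∧ XG Fr p1 n0 ≤ ⁅D, D⁆ := by
  have hE := eig_hX (Fr := Fr) (x := p0) (y := n1) (by decide) ht hσ
  have hg := hX_mem h1 h2 t
  refine ⟨XG_le_comm hE hg (by decide) h1 ?_, XG_le_comm hE hg (by decide) h2 ?_⟩
  · rw [if_pos (Or.inl rfl), if_pos (Or.inr rfl)]
    exact sq_ne ht1
  · rw [if_neg (by decide), if_pos (by decide), if_neg (by decide), if_pos (by decide)]
    exact sq_ne (inv_ne_one.2 ht1)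

/-- node 0: everything -/
theorem zero_all {D : Subgroup (V ≃ₗ[F] V)} (h1 : XG Fr p0 n1 ≤ D) (h2 : XG Fr p1 n0 ≤ D) (h3 : ZG Fr p1 ≤ D)
    (h4 : XG Fr p0 p1 ≤ D) (h5 : ZG Fr p0 ≤ D) {t : F} (ht : t ≠ 0) (ht1 : t ≠ 1) (hσ : H.σ t = t)
    {q : Fr.Adm} (hq : q.c ≠ 0) :
    ZG Fr p1 ≤ ⁅D, D⁆ ∧ XG Fr p0 p1 ≤ ⁅D, D⁆ ∧ ZG Fr p0 ≤ ⁅D, D⁆ := by
  have hE := eig_hX (Fr := Fr) (x := p0) (y := n1) (by decide) ht hσ
  have hg := hX_mem h1 h2 t
  have k1 : ZG Fr p1 ≤ ⁅D, D⁆ := by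
    refine ZG_le_comm hE hg h3 ?_
    rw [if_neg (by decide), if_pos (by decide)]
    exact inv_ne_one.2 ht1
  have k2 : ZG Fr p0 ≤ ⁅D, D⁆ := by
    refine ZG_le_comm hE hg h5 ?_
    rw [if_pos (Or.inl rfl)]
    exact ht1
  refine ⟨k1, ?_, k2⟩
  rintro _ ⟨u, rfl⟩
  have hσq : H.σ q.c ≠ 0 := by simpa using hq
  have hc : -(H.ε⁻¹ * Fr.η p1 * H.σ q.c) ≠ 0 :=
    neg_ne_zero.2 (mul_ne_zero (mul_ne_zero (inv_ne_zero H.ε_ne) (Fr.η_ne _)) hσq)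
  have e := Cfsg.Agent.KFacts.Mult.WittZ.comm_X_Z (Fr := Fr) (x := p0) (y := p1) (by decide)
    ((-(H.ε⁻¹ * Fr.η p1 * H.σ q.c))⁻¹ * u) q
  have e2 : -(H.ε⁻¹ * Fr.η p1 * H.σ q.c * ((-(H.ε⁻¹ * Fr.η p1 * H.σ q.c))⁻¹ * u)) = u := by
    rw [← mul_assoc, ← neg_mul, ← neg_mul, mul_inv_cancel₀ (by simpa using hc), one_mul]
  rw [e2] at e
  have e3 : Fr.X p0 p1 u = (Fr.Z p0 (Frame.Adm.smul (H.σ ((-(H.ε⁻¹ * Fr.η p1 * H.σ q.c))⁻¹ * u)) q))⁻¹ *
      ⁅Fr.X p0 (neg p1) ((-(H.ε⁻¹ * Fr.η p1 * H.σ q.c))⁻¹ * u), Fr.Z p1 q⁆ := by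
    rw [e]; group
  rw [e3]
  exact mul_mem (inv_mem (k2 ⟨_, rfl⟩)) (Subgroup.commutator_mem_commutator (h1 ⟨_, rfl⟩) (h3 ⟨_, rfl⟩))

/-- node 1: the root groups `±2e₁` -/
theorem one_self {G0 : Subgroup (V ≃ₗ[F] V)} (hA : AmbT Fr 2 G0) {D : Subgroup (V ≃ₗ[F] V)} (h1 : ZG Fr p1 ≤ D)
    (h2 : ZG Fr n1 ≤ D) {q : Fr.Adm} (hq : q.c ≠ 0) {a : F} (ha : a ≠ 0) (ha1 : a * H.σ a ≠ 1) :
    ∃ g ∈ D, ∃ m : Fin 2 × Bool → F, Eig Fr g m ∧ m p1 = a * H.σ a ∧ m n1 = (a * H.σ a)⁻¹ ∧ m p0 = 1 ∧ m n0 = 1 := by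
  have hσ : H.σ (a * H.σ a) = a * H.σ a := by rw [map_mul, H.σσ, mul_comm]
  have hE := eig_ts (Cfsg.Agent.KFacts.Mult.WittA.torT_of_ambT hA hq) hq hA.V0 1 ha rfl hσ
  have key : ∀ p : Fr.Adm, nZ Fr p1 p ∈ D := fun p =>
    mul_mem (mul_mem (h1 ⟨_, rfl⟩) (h2 ⟨_, rfl⟩)) (h1 ⟨_, rfl⟩)
  refine ⟨_, mul_mem (key _) (inv_mem (key _)), _, hE, ?_, ?_, ?_, ?_⟩
  · exact if_pos rfl
  · rw [if_neg (by decide), if_pos rfl]
  · rw [if_neg (by decide), if_neg (by decide)]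
  · rw [if_neg (by decide), if_neg (by decide)]

theorem one_comm {G0 : Subgroup (V ≃ₗ[F] V)} (hA : AmbT Fr 2 G0) {D : Subgroup (V ≃ₗ[F] V)} (h1 : ZG Fr p1 ≤ D)
    (h2 : ZG Fr n1 ≤ D) {q : Fr.Adm} (hq : q.c ≠ 0) {a : F} (ha : a ≠ 0) (ha1 : a * H.σ a ≠ 1) :
    ZG Fr p1 ≤ ⁅D, D⁆ ∧ ZG Fr n1 ≤ ⁅D, D⁆ := by
  obtain ⟨g, hg, m, hE, e1, e2, -, -⟩ := one_self hA h1 h2 hq ha ha1
  exact ⟨ZG_le_comm hE hg h1 (by rw [e1]; exact ha1), ZG_le_comm hE hg h2 (by rw [e2]; exact inv_ne_one.2 ha1)⟩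

theorem one_all {G0 : Subgroup (V ≃ₗ[F] V)} (hA : AmbT Fr 2 G0) {D : Subgroup (V ≃ₗ[F] V)} (h1 : ZG Fr p1 ≤ D)
    (h2 : ZG Fr n1 ≤ D) (h3 : XG Fr p0 n1 ≤ D) (h4 : XG Fr p0 p1 ≤ D) {q : Fr.Adm} (hq : q.c ≠ 0) {a : F}
    (ha : a ≠ 0) (ha1 : a * H.σ a ≠ 1) :
    XG Fr p0 n1 ≤ ⁅D, D⁆ ∧ XG Fr p0 p1 ≤ ⁅D, D⁆ ∧ ZG Fr p0 ≤ ⁅D, D⁆ := by
  obtain ⟨g, hg, m, hE, e1, e2, e3, -⟩ := one_self hA h1 h2 hq ha ha1
  have k1 : XG Fr p0 n1 ≤ ⁅D, D⁆ := XG_le_comm hE hg (by decide) h3 (by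
    rw [e2, e3, one_mul]; exact inv_ne_one.2 ha1)
  have k2 : XG Fr p0 p1 ≤ ⁅D, D⁆ := XG_le_comm hE hg (by decide) h4 (by rw [e1, e3, one_mul]; exact ha1)
  refine ⟨k1, k2, ?_⟩
  rintro _ ⟨p, rfl⟩
  have e := Cfsg.Agent.KFacts.Mult.WittZ.comm_X_Z (Fr := Fr) (x := p0) (y := p1) (by decide) 1 p
  rw [map_one, Frame.Adm.one_smul] at e
  have e4 : Fr.Z p0 p = ⁅Fr.X p0 (neg p1) 1, Fr.Z p1 p⁆ * (Fr.X p0 p1 (-(H.ε⁻¹ * Fr.η p1 * H.σ p.c * 1)))⁻¹ := by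
    rw [e]; group
  rw [e4]
  exact mul_mem (Subgroup.commutator_mem_commutator (h3 ⟨_, rfl⟩) (h1 ⟨_, rfl⟩)) (inv_mem (k2 ⟨_, rfl⟩))

end two

end Cfsg.Agent.H1.WittPerf
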