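import Mathlib
import Cfsg.Agent.H1.TopPSL
import Cfsg.Agent.H1.WittPerf
import Cfsg.Agent.UGT.U2.FOne.HexTwDFour

/-!
# `³D₄(q)`, `q ≥ 4` even: `T ≤ L` for all `L ∈ ℒ(G, T)` (helper1)
-/

set_option autoImplicit false
set_option linter.unusedSectionVars false

namespace Cfsg.Agent.H1.TopHex

open CoxeterSystem Cfsg.Agent.ChevalleyStructure.CoxeterGeom Cfsg.Agent.Tits.Roots Cfsg.Agent.Tits.Core
  Cfsg.Agent.Tits.RootComb Cfsg.Agent.Nodes.Comb Cfsg.Agent.Nodes.Reps Cfsg.Agent.Nodes.BNOf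
  Cfsg.Agent.SplitTwo Cfsg.Agent.UGT.U2.FOne.Hexa
open Cfsg.Agent.H1.QsNode Cfsg.Agent.H1.TopPSL Cfsg.Agent.H1.WittPerf
open scoped commutatorElement

section field

variable {E : Type*} [Field E] [Finite E] [CharP E 2] {θ : E ≃+* E}

theorem shp_surj (h3 : ∀ a, θ (θ (θ a)) = a) (v : E) : ∃ c, shp θ c = v := by
  by_cases hv : v = 0
  · refine ⟨0, ?_⟩
    unfold shp
    rw [map_zero, zero_mul, hv]
  obtain ⟨l, hl⟩ : ∃ l : E, l ^ 2 = nrm θ v := by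
    have h1 : Function.Surjective (frobenius E 2) := Finite.surjective_of_injective (frobenius_inj E 2)
    exact h1 _
  have hn : θ (nrm θ v) = nrm θ v := by
    unfold nrm
    rw [map_mul, map_mul, h3]
    ring
  have hθl : θ l = l := by
    apply frobenius_inj E 2
    change (θ l) ^ 2 = l ^ 2
    rw [← map_pow, hl, hn]
  have hv1 : θ v ≠ 0 := (map_ne_zero θ).2 hv
  have hv2 : θ (θ v) ≠ 0 := (map_ne_zero θ).2 hv1
  refine ⟨l / v, ?_⟩
  unfold shp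
  rw [map_div₀, map_div₀, hθl, hθl, div_mul_div_comm, ← pow_two, hl]
  unfold nrm
  field_simp

theorem crs_span (h3 : ∀ a, θ (θ (θ a)) = a) (hθ : ∃ a, θ a ≠ a) (S : AddSubgroup E)
    (hS : ∀ a b, crs θ a b ∈ S) (u : E) : u ∈ S := by
  obtain ⟨a, ha⟩ := hθ
  have hw : crs θ a 1 ≠ 0 := by
    unfold crs
    rw [map_one, map_one, mul_one, mul_one]
    intro h
    have h1 : θ a = θ (θ a) := by
      have := CharTwo.add_eq_zero.1 h
      exact this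
    exact ha (θ.injective h1).symm
  obtain ⟨c, hc⟩ := shp_surj h3 (u / crs θ a 1)
  have h1 : u = crs θ (c * a) (c * 1) := by
    have h2 : crs θ (c * a) (c * 1) = shp θ c * crs θ a 1 := by
      unfold crs shp
      simp only [map_mul]
      ring
    rw [h2, hc, div_mul_cancel₀ _ hw]
  rw [h1]
  exact hS _ _

end field

variable {I W K : Type*} [Fintype I] [DecidableEq I] [Group W] [Finite W] [Group K] {M : CoxeterMatrix I}
  {cs : CoxeterSystem M W} {A : I → I → ℤ} {h : IsCartan M A} {p : ℕ} {T : Subgroup K} {n : I → K}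
  {X : (I → ℤ) → Subgroup K} {l s : I}

theorem exists_m (R : RGD cs h p T n X) (i : I) :
    ∃ m ∈ X (sr i) ⊔ X (-sr i), ∀ x, IsRoot cs h x → cj m (X x) = X (rep cs h (cs.simple i) x) := by
  obtain ⟨u, hu, hu1⟩ := exists_ne_one R i
  obtain ⟨a, ha, t, ht, b, hb, e⟩ := R.rk1 i u hu hu1
  have h1 : t * n i = a⁻¹ * u * b⁻¹ := by rw [e]; group
  refine ⟨t * n i, ?_, fun x hx => ?_⟩
  · rw [h1]
    exact mul_mem (mul_mem (inv_mem ((le_sup_left : X (sr i) ≤ _) ha)) ((le_sup_right : X (-sr i) ≤ _) hu))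
      (inv_mem ((le_sup_left : X (sr i) ≤ _) hb))
  · rw [cj_mul, R.conj i _ hx, R.tor _ (hx.act _) t ht]

theorem kk_mem {D : Subgroup K} {a b : K} (ha : a ∈ D) (hb : b ∈ D) : kk a b ∈ ⁅D, D⁆ := by
  have : kk a b = ⁅a⁻¹, b⁻¹⁆ := by
    unfold kk
    rw [commutatorElement_def]
    group
  rw [this]
  exact Subgroup.commutator_mem_commutator (inv_mem ha) (inv_mem hb)

section Par

variable {E : Type*} [Field E] [Finite E] [CharP E 2] {θ : E ≃+* E} {x1 x2 x3 x4 x5 x6 : E → K}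
  (P : HexPar θ (fun k => X (r l s k)) x1 x2 x3 x4 x5 x6)

include P

theorem four_le {D : Subgroup K} (h2 : X (r l s 2) ≤ D) (h6 : X (r l s 6) ≤ D) : X (r l s 4) ≤ ⁅D, D⁆ := by
  intro g hg
  obtain ⟨a, ha, rfl⟩ := (P.mem4 g).1 hg
  have h1 := P.rel.c26 a 1 ha (map_one θ)
  rw [mul_one] at h1
  rw [← h1]
  exact kk_mem (h2 ((P.mem2 _).2 ⟨a, ha, rfl⟩)) (h6 ((P.mem6 _).2 ⟨1, map_one θ, rfl⟩))

theorem trc_fix (a b : E) : θ (trc θ a b) = trc θ a b := by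
  unfold trc
  rw [map_add, map_add, P.rel.cube]
  ring

theorem nrm_fix (a : E) : θ (nrm θ a) = nrm θ a := by
  unfold nrm
  rw [map_mul, map_mul, P.rel.cube]
  ring

theorem two_le {D : Subgroup K} (h1 : X (r l s 1) ≤ D) (h3 : X (r l s 3) ≤ D) : X (r l s 2) ≤ ⁅D, D⁆ := by
  intro g hg
  obtain ⟨a, ha, rfl⟩ := (P.mem2 g).1 hg
  have h4 : trc θ a 1 = a := by
    unfold trc
    rw [mul_one, ha, ha, CharTwo.add_self_eq_zero, zero_add]
  have h5 := P.rel.c13 a 1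
  rw [h4] at h5
  rw [← h5]
  exact kk_mem (h1 ((P.mem1 _).2 ⟨a, rfl⟩)) (h3 ((P.mem3 _).2 ⟨1, rfl⟩))

theorem three_le (hθ : ∃ a, θ a ≠ a) {D : Subgroup K} (h1 : X (r l s 1) ≤ D) (h5 : X (r l s 5) ≤ D)
    (h2 : X (r l s 2) ≤ ⁅D, D⁆) (h4 : X (r l s 4) ≤ ⁅D, D⁆) : X (r l s 3) ≤ ⁅D, D⁆ := by
  intro g hg
  obtain ⟨u, rfl⟩ := (P.mem3 g).1 hg
  let S : AddSubgroup E :=
    { carrier := {u | x3 u ∈ ⁅D, D⁆}
      zero_mem' := by
        change x3 0 ∈ ⁅D, D⁆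
        rw [x_zero P.rel.add3]
        exact one_mem _
      add_mem' := fun {a b} ha hb => by
        change x3 (a + b) ∈ ⁅D, D⁆
        rw [P.rel.add3]
        exact mul_mem ha hb
      neg_mem' := fun {a} ha => by
        change x3 (-a) ∈ ⁅D, D⁆
        rw [x_neg P.rel.add3]
        exact inv_mem ha }
  refine crs_span P.rel.cube hθ S (fun a b => ?_) u
  change x3 (crs θ a b) ∈ ⁅D, D⁆
  have h6 : kk (x1 a) (x5 b) ∈ ⁅D, D⁆ := kk_mem (h1 ((P.mem1 _).2 ⟨a, rfl⟩)) (h5 ((P.mem5 _).2 ⟨b, rfl⟩))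
  rw [P.rel.c15] at h6
  have e2 : x2 (-(trc θ (shp θ a) b)) ∈ ⁅D, D⁆ :=
    h2 ((P.mem2 _).2 ⟨_, by rw [map_neg, trc_fix P], rfl⟩)
  have e4 : x4 (trc θ a (shp θ b)) ∈ ⁅D, D⁆ := h4 ((P.mem4 _).2 ⟨_, trc_fix P _ _, rfl⟩)
  exact (Subgroup.mul_mem_cancel_left _ e2).1 ((Subgroup.mul_mem_cancel_right _ e4).1 h6)

theorem five_le {D : Subgroup K} (h1 : X (r l s 1) ≤ D) (h6 : X (r l s 6) ≤ D)
    (h2 : X (r l s 2) ≤ ⁅D, D⁆) (h3 : X (r l s 3) ≤ ⁅D, D⁆) (h4 : X (r l s 4) ≤ ⁅D, D⁆) :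
    X (r l s 5) ≤ ⁅D, D⁆ := by
  intro g hg
  obtain ⟨u, rfl⟩ := (P.mem5 g).1 hg
  have h7 : kk (x1 (-u)) (x6 1) ∈ ⁅D, D⁆ :=
    kk_mem (h1 ((P.mem1 _).2 ⟨_, rfl⟩)) (h6 ((P.mem6 _).2 ⟨1, map_one θ, rfl⟩))
  rw [P.rel.c16 _ _ (map_one θ), one_mul, one_mul, one_mul, neg_neg, one_pow, one_mul] at h7
  have e2 : x2 (-(nrm θ (-u))) ∈ ⁅D, D⁆ := h2 ((P.mem2 _).2 ⟨_, by rw [map_neg, nrm_fix P], rfl⟩)
  have e3 : x3 (shp θ (-u)) ∈ ⁅D, D⁆ := h3 ((P.mem3 _).2 ⟨_, rfl⟩)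
  have e4 : x4 (nrm θ (-u)) ∈ ⁅D, D⁆ := h4 ((P.mem4 _).2 ⟨_, nrm_fix P _, rfl⟩)
  exact (Subgroup.mul_mem_cancel_left _ (mul_mem (mul_mem e2 e3) e4)).1 h7

theorem long_all (R : RGD cs h p T n X) (H : TyG A l s) (hθ : ∃ a, θ a ≠ a) {D : Subgroup K}
    (hD : ∀ k ∈ [(1 : ZMod (2 * 6)), 2, 3, 4, 5, 6], X (r l s k) ≤ D) (hn : X (-sr l) ≤ D)
    (hp : X (sr l) ≤ ⁅D, D⁆) : ∀ k ∈ [(1 : ZMod (2 * 6)), 2, 3, 4, 5, 6], X (r l s k) ≤ ⁅D, D⁆ := by
  obtain ⟨m, hm, hmk⟩ := exists_m R l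
  have hmD : m ∈ D := by
    refine (sup_le ?_ hn) hm
    rw [← r_six (l := l) (s := s)]
    exact hD 6 (by simp)
  have hmv : ∀ k k', 6 - k = k' → X (r l s k) ≤ ⁅D, D⁆ → X (r l s k') ≤ ⁅D, D⁆ := by
    intro k k' e hk
    have h1 := hmk _ (isRoot_r (cs := cs) (h := h) H k)
    rw [rep_l H, e] at h1
    rw [← h1]
    exact conj_le_comm hmD hk
  have h4 := four_le P (hD 2 (by simp)) (hD 6 (by simp))
  have h2 := hmv 4 2 (by decide) h4
  have h3 := three_le P hθ (hD 1 (by simp)) (hD 5 (by simp)) h2 h4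
  have h5 := five_le P (hD 1 (by simp)) (hD 6 (by simp)) h2 h3 h4
  have h1 := hmv 5 1 (by decide) h5
  intro k hk
  simp only [List.mem_cons, List.not_mem_nil, or_false] at hk
  rcases hk with rfl | rfl | rfl | rfl | rfl | rfl
  · exact h1
  · exact h2
  · exact h3
  · exact h4
  · exact h5
  · rw [r_six]
    exact hp

theorem short_all (R : RGD cs h p T n X) (H : TyG A l s) (hθ : ∃ a, θ a ≠ a) {D : Subgroup K}
    (hD : ∀ k ∈ [(1 : ZMod (2 * 6)), 2, 3, 4, 5, 6], X (r l s k) ≤ D) (hn : X (-sr s) ≤ D)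
    (hp : X (sr s) ≤ ⁅D, D⁆) : ∀ k ∈ [(1 : ZMod (2 * 6)), 2, 3, 4, 5, 6], X (r l s k) ≤ ⁅D, D⁆ := by
  obtain ⟨m, hm, hmk⟩ := exists_m R s
  have hmD : m ∈ D := by
    refine (sup_le ?_ hn) hm
    rw [← r_one (l := l) (s := s)]
    exact hD 1 (by simp)
  have hmv : ∀ k k', 8 - k = k' → X (r l s k) ≤ ⁅D, D⁆ → X (r l s k') ≤ ⁅D, D⁆ := by
    intro k k' e hk
    have h1 := hmk _ (isRoot_r (cs := cs) (h := h) H k)
    rw [rep_s H, e] at h1
    rw [← h1]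
    exact conj_le_comm hmD hk
  have h4 := four_le P (hD 2 (by simp)) (hD 6 (by simp))
  have h2 := two_le P (hD 1 (by simp)) (hD 3 (by simp))
  have h6 := hmv 2 6 (by decide) h2
  have h3 := three_le P hθ (hD 1 (by simp)) (hD 5 (by simp)) h2 h4
  have h5 := hmv 3 5 (by decide) h3
  intro k hk
  simp only [List.mem_cons, List.not_mem_nil, or_false] at hk
  rcases hk with rfl | rfl | rfl | rfl | rfl | rfl
  · rw [r_one]
    exact hp
  · exact h2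
  · exact h3
  · exact h4
  · exact h5
  · exact h6

omit P [Finite E] [CharP E 2] in
theorem pos_mem : ∀ k : ZMod (2 * 6), 0 ≤ (tab k).1 → 0 ≤ (tab k).2 → k ∈ [(1 : ZMod (2 * 6)), 2, 3, 4, 5, 6] := by
  decide

theorem perfNode_hex (R : RGD cs h p T n X) (H : TyG A l s) (hθ : ∃ a, θ a ≠ a) (i : I)
    (hp : ∀ D : Subgroup K, X (sr i) ≤ D → X (-sr i) ≤ D → X (sr i) ≤ ⁅D, D⁆ ∧ X (-sr i) ≤ ⁅D, D⁆) :
    PerfNode cs h X i := by
  set D := RGD.Sup X (RGD.Pos cs h) ⊔ X (-sr i) with hD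
  have hposD : ∀ x ∈ RGD.Pos cs h, X x ≤ D := fun x hx => le_sup_of_le_left (RGD.le_Sup hx)
  have htab : ∀ k ∈ [(1 : ZMod (2 * 6)), 2, 3, 4, 5, 6], 0 ≤ (tab k).1 ∧ 0 ≤ (tab k).2 := by decide
  have hDk : ∀ k ∈ [(1 : ZMod (2 * 6)), 2, 3, 4, 5, 6], X (r l s k) ≤ D := by
    intro k hk
    refine hposD _ ⟨isRoot_r H k, ?_⟩
    intro j
    obtain ⟨h1, h2⟩ := htab k hk
    rcases H.all j with rfl | rfl
    · change 0 ≤ rv _ _ (tab k) _
      rw [rv_l H]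
      exact h1
    · change 0 ≤ rv _ _ (tab k) _
      rw [rv_s H]
      exact h2
  obtain ⟨h1, h2⟩ := hp D (hposD _ ⟨isRoot_sr cs h i, fun k => sr_nonneg i k⟩) le_sup_right
  have hall : ∀ k ∈ [(1 : ZMod (2 * 6)), 2, 3, 4, 5, 6], X (r l s k) ≤ ⁅D, D⁆ := by
    rcases H.all i with rfl | rfl
    · exact long_all P R H hθ hDk le_sup_right h1
    · exact short_all P R H hθ hDk le_sup_right h1
  refine perfNode_of (fun x hx => ?_) h2
  obtain ⟨k, rfl⟩ := (isRoot_iff H).1 hx.1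
  refine hall k (pos_mem k ?_ ?_)
  · have := hx.2 l
    change 0 ≤ rv _ _ (tab k) _ at this
    rwa [rv_l H] at this
  · have := hx.2 s
    change 0 ≤ rv _ _ (tab k) _ at this
    rwa [rv_s H] at this

end Par

end Cfsg.Agent.H1.TopHex

namespace Cfsg.Agent.H1.TopHex

open CoxeterSystem Cfsg.Agent.ChevalleyStructure.CoxeterGeom Cfsg.Agent.Tits.Roots
  Cfsg.Agent.Nodes.Reps Cfsg.Agent.Nodes.BNOf
open Cfsg Cfsg.Lie Cfsg.Agent.ChevalleyStructure Cfsg.Agent.BiChar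
open Cfsg.Agent.Nodes.RGDTwD4 (J A isCartan X)
open Cfsg.Agent.Nodes.RGDFoldSL
open Cfsg.Agent.UGT.U2.FOne.Hexa
open Cfsg.Agent.H1.QsNode Cfsg.Agent.H1.TopPSL Cfsg.Agent.H1.RowExc Cfsg.Agent.H1.RgdRow

universe v

variable {K : Type} [Field K] [Fintype K] [CharP K 2] {q : ℕ}

theorem rowT_twD4' (hq : IsPrimePow q) (h4 : 4 ≤ q) (hK : Fintype.card K = q ^ 3) : RowT ↥(twistedD4 K q) := by
  obtain ⟨φ, hφ⟩ := D4Fixed.exists_frob hq hK
  have hle := D4Fixed.twisted_le_fix hK hφ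
  have h2p : Fact (Nat.Prime 2) := ⟨Nat.prime_two⟩
  have hfW : Finite CoxeterMatrix.G₂.Group := Nodes.RGDChev.finite_W GTwo.isType TwDFour.cs
  have hch : ∀ i : Fin 2, CharP (Fx φ ((Nodes.RGDTwNode.D4.rest i).length + 1)) 2 := fun i =>
    (RingHom.charP_iff _ (Fx φ ((Nodes.RGDTwNode.D4.rest i).length + 1)).subtype.injective 2).2 inferInstance
  let hft : ∀ i : Fin 2, Fintype (Fx φ ((Nodes.RGDTwNode.D4.rest i).length + 1)) := fun i => Fintype.ofFinite _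
  have hcard : ∀ i : Fin 2, 4 ≤ Fintype.card (Fx φ ((Nodes.RGDTwNode.D4.rest i).length + 1)) := by
    intro i
    rw [← Nat.card_eq_fintype_card]
    fin_cases i
    · exact (card_Fx_one hφ hq hK).symm ▸ h4
    · have h1 : Nat.card (Fx φ 3) = q ^ 3 := card_Fx_three hφ hK
      have h2 : 4 ≤ q ^ 3 := h4.trans (Nat.le_self_pow (by norm_num) q)
      exact h1.symm ▸ h2
  obtain ⟨F, hF1, hF2, hF3, -, hL⟩ := rowL_twD4 hq hK
  have h3 : ∀ a : K, φ (φ (φ a)) = a := by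
    intro t
    rw [hφ, hφ, hφ, ← pow_mul, ← pow_mul]
    have : q * (q * q) = q ^ 3 := by ring
    rw [this, ← hK]
    exact FiniteField.pow_card t
  have hbij : Function.Bijective φ := Finite.injective_iff_bijective.1 φ.injective
  have hpar := Cfsg.Agent.Hexagon.TwD4Par.hexPar (q := q) hφ hle (σ := RingEquiv.ofBijective φ hbij)
    (fun x => rfl) h3
  have hP : (fun k => X φ q (r (0 : Fin 2) 1 k)) = Cfsg.Agent.Hexagon.TwD4RGD.X K q :=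
    funext (Cfsg.Agent.UGT.U2.FOne.TwDFour.X_eq hle)
  rw [← hP] at hpar
  have hθ : ∃ a : K, (RingEquiv.ofBijective φ hbij) a ≠ a := by
    by_contra hcon
    push Not at hcon
    have h1 : Fx φ 1 = ⊤ := by
      rw [eq_top_iff]
      exact fun t _ => mem_Fx.2 (hcon t)
    have h2 := card_Fx_one hφ hq hK
    rw [h1, Nat.card_congr Subfield.topEquiv.toEquiv, Nat.card_eq_fintype_card, hK] at h2
    have h5 : q ^ 1 < q ^ 3 := Nat.pow_lt_pow_right (by omega) (by norm_num)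
    rw [pow_one] at h5
    omega
  have R := Nodes.RGDTwD4.rgd (K := K) TwDFour.cs hK hφ 2
  have hnode : ∀ i, PerfNode TwDFour.cs isCartan (X φ q) i := by
    intro i
    refine perfNode_hex hpar R Cfsg.Agent.UGT.U2.FOne.TwDFour.tyG hθ i fun D h1 h2 => ?_
    have h5 := range_le_comm (commutator_eq_top (simple_sl _ (hcard i)) (not_comm_sl _ (hcard i)))
      (TwDFour.Ph hφ hle i) (D := D) (by rw [TwDFour.range_Ph hφ hle hK i]; exact sup_le h1 h2)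
    rw [TwDFour.range_Ph hφ hle hK i] at h5
    exact ⟨le_sup_left.trans h5, le_sup_right.trans h5⟩
  exact rowT_of_rgd (Cfsg.Agent.KFacts.RgdFiltTwAll.filt_fold TwDFour.cs Nodes.RGDTwD4.isCartan Nodes.RGDTwD4.foldData
      (Nodes.RGDTwD4.foldGrp hφ hle) 2) (Nodes.RGDTwD4.G1_eq_top TwDFour.cs hK hφ) hL
    (fun J _ => perfJ_of_nodes solvable_T hnode J)

/-- **`T ≤ L` in `³D₄(q)`, `q ≥ 4` even** -/
theorem rowT_twD4 {G : Type v} [Group G] [Finite G] (hq : IsPrimePow q) (h4 : 4 ≤ q) (hK : Fintype.card K = q ^ 3)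
    (e : G ≃* ↥(twistedD4 K q)) : RowT G :=
  RowT.congr e (rowT_twD4' hq h4 hK)

end Cfsg.Agent.H1.TopHex
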